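import Cfsg.Agent.H589.FF.Lift

/-!
# Twelve explicit modules of the Hecke algebra of type `F₄` (S4842; helper943 for helper589)

`N i v = lam i • v + f_i(v) • e_i`.
-/

set_option autoImplicit false
set_option linter.unusedSectionVars false

namespace Cfsg.Agent.H943.FF

open Cfsg.Agent.H589.FF Module

section Gen

variable {E : Type*} [AddCommGroup E] [Module ℂ E]

/-- the dimension of the space of the vectors fixed by the `N i`, `i ∈ K` -/
noncomputable def kd (N : Fin 4 → Module.End ℂ E) (K : Set (Fin 4)) : ℤ := finrank ℂ (fk N K)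

/-- the multiplicity number -/
noncomputable def mm (N : Fin 4 → Module.End ℂ E) (a b c : Fin 4) : ℤ :=
  2 * (kd N {c} - 3 * kd N {a, c} + 3 * kd N {a, b, c}) - (kd N ∅ - 3 * kd N {a} + 3 * kd N {a, b})

theorem mem_fk {N : Fin 4 → Module.End ℂ E} {K : Set (Fin 4)} {v : E} : v ∈ fk N K ↔ ∀ i ∈ K, N i v = v := Iff.rfl

theorem hmod_of {q : ℕ} {N : Fin 4 → Module.End ℂ E}
    (hq : ∀ i v, (q : ℂ) • N i (N i v) = ((q : ℂ) - 1) • N i v + v)
    (h01 : ∀ v, N 0 (N 1 (N 0 v)) = N 1 (N 0 (N 1 v))) (h12 : ∀ v, N 1 (N 2 (N 1 (N 2 v))) = N 2 (N 1 (N 2 (N 1 v))))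
    (h23 : ∀ v, N 2 (N 3 (N 2 v)) = N 3 (N 2 (N 3 v))) (h02 : ∀ v, N 0 (N 2 v) = N 2 (N 0 v))
    (h03 : ∀ v, N 0 (N 3 v) = N 3 (N 0 v)) (h13 : ∀ v, N 1 (N 3 v) = N 3 (N 1 v)) :
    HMod CoxeterMatrix.F₄ (fun _ => q) N := by
  refine ⟨hq, fun i j hij _ => LinearMap.ext fun v => ?_⟩
  fin_cases i <;> fin_cases j
  all_goals first
    | exact absurd rfl hij
    | exact h01 v
    | exact (h01 v).symm
    | exact h12 v
    | exact (h12 v).symm
    | exact h23 v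
    | exact (h23 v).symm
    | exact h02 v
    | exact (h02 v).symm
    | exact h03 v
    | exact (h03 v).symm
    | exact h13 v
    | exact (h13 v).symm

end Gen

section Dim

variable {n : ℕ} (lam : Fin 4 → ℂ) (F e : Fin 4 → Fin n → ℂ)

/-- the functionals -/
noncomputable def ff (i : Fin 4) : (Fin n → ℂ) →ₗ[ℂ] ℂ := Fintype.linearCombination ℂ (F i)

theorem ff_apply (i : Fin 4) (v : Fin n → ℂ) : ff F i v = ∑ j, v j * F i j := by
  unfold ff
  rw [Fintype.linearCombination_apply]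
  rfl

/-- the operators -/
noncomputable def NN (i : Fin 4) : Module.End ℂ (Fin n → ℂ) := lam i • LinearMap.id + (ff F i).smulRight (e i)

theorem NN_apply (i : Fin 4) (v : Fin n → ℂ) : NN lam F e i v = lam i • v + ff F i v • e i := rfl

variable {lam F e}

theorem kd_of {K : Set (Fin 4)} {N : Fin 4 → Module.End ℂ (Fin n → ℂ)} (K1 : Finset (Fin 4))
    (hK : ∀ v, (∀ i ∈ K, N i v = v) ↔ ∀ i ∈ K1, ff F i v = 0)
    (hs : ∀ w : Fin 4 → ℂ, ∃ v, ∀ i ∈ K1, ff F i v = w i) : kd N K = n - K1.card := by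
  let L : (Fin n → ℂ) →ₗ[ℂ] (K1 → ℂ) := LinearMap.pi fun i => ff F i
  have hL : fk N K = LinearMap.ker L := by
    ext v
    rw [mem_fk, hK, LinearMap.mem_ker]
    constructor
    · intro h
      funext i
      exact h i i.2
    · intro h i hi
      exact congrFun h ⟨i, hi⟩
  have hr : LinearMap.range L = ⊤ := by
    rw [LinearMap.range_eq_top]
    intro w
    obtain ⟨v, hv⟩ := hs fun i => if h : i ∈ K1 then w ⟨i, h⟩ else 0
    refine ⟨v, funext fun i => ?_⟩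
    have h1 := hv i i.2
    rw [dif_pos i.2] at h1
    exact h1
  have h1 := LinearMap.finrank_range_add_finrank_ker L
  rw [hr, finrank_top, finrank_fintype_fun_eq_card, finrank_fintype_fun_eq_card, Fintype.card_coe, Fintype.card_fin]
    at h1
  unfold kd
  rw [hL]
  omega

theorem kd_one {K : Set (Fin 4)} {N : Fin 4 → Module.End ℂ (Fin n → ℂ)} {x : Fin n → ℂ} (hx : x ≠ 0)
    (hK : ∀ v, (∀ i ∈ K, N i v = v) ↔ ∃ c : ℂ, c • x = v) : kd N K = 1 := by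
  have hL : fk N K = Submodule.span ℂ {x} := by
    ext v
    rw [mem_fk, hK, Submodule.mem_span_singleton]
  unfold kd
  rw [hL, finrank_span_singleton hx]
  rfl

theorem kd_zero {K : Set (Fin 4)} {N : Fin 4 → Module.End ℂ (Fin n → ℂ)}
    (hK : ∀ v, (∀ i ∈ K, N i v = v) → v = 0) : kd N K = 0 := by
  have hL : fk N K = ⊥ := by
    rw [eq_bot_iff]
    intro v hv
    exact hK v hv
  unfold kd
  rw [hL, finrank_bot]
  rfl

theorem kd_id {K : Set (Fin 4)} {N : Fin 4 → Module.End ℂ (Fin n → ℂ)} (hK : ∀ v, ∀ i ∈ K, N i v = v) :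
    kd N K = n := by
  have hL : fk N K = ⊤ := by
    rw [eq_top_iff]
    intro v _
    exact hK v
  unfold kd
  rw [hL, finrank_top, finrank_fintype_fun_eq_card, Fintype.card_fin]

theorem NN_plus {i : Fin 4} (hl : lam i = 1) (he : e i ≠ 0) (v : Fin n → ℂ) : NN lam F e i v = v ↔ ff F i v = 0 := by
  rw [NN_apply, hl, one_smul, add_eq_left, smul_eq_zero, or_iff_left he]

theorem NN_minus {r : ℂ} (hr : 1 + r ≠ 0) {i : Fin 4} (hl : lam i = -r) (he : ff F i (e i) = 1 + r) (v : Fin n → ℂ) :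
    NN lam F e i v = v ↔ ∃ c : ℂ, c • e i = v := by
  rw [NN_apply, hl]
  constructor
  · intro h
    refine ⟨(1 + r)⁻¹ * ff F i v, ?_⟩
    have h1 : ff F i v • e i = (1 + r) • v := by
      linear_combination (norm := module) h
    rw [mul_smul, h1, smul_smul, inv_mul_cancel₀ hr, one_smul]
  · rintro ⟨c, rfl⟩
    rw [map_smul, he, smul_smul, smul_eq_mul, ← add_smul]
    congr 1
    ring

theorem ff_e (i j : Fin 4) : ff F i (e j) = ∑ k, e j k * F i k := ff_apply _ _ _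

end Dim

/-! ### the reflection modules of dimension 4 -/

section Four

variable (l m l' m' : ℂ)

/-- the coefficients of the functionals -/
def F4 : Fin 4 → Fin 4 → ℂ :=
  ![![m - l, -(l * m), 0, 0], ![1, m - l, -(m * l' + l * m'), 0], ![0, 1, m' - l', -(l' * m')], ![0, 0, 1, m' - l']]

/-- the scalars -/
def lam4 : Fin 4 → ℂ := ![l, l, l', l']

/-- the vectors -/
def e4 : Fin 4 → Fin 4 → ℂ := fun i => Pi.single i 1

theorem e4_ne (i : Fin 4) : e4 i ≠ 0 := by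
  unfold e4
  rw [Ne, Pi.single_eq_zero_iff]
  exact one_ne_zero

theorem ff_e4 (i j : Fin 4) : ff (F4 l m l' m') i (e4 j) = F4 l m l' m' i j := by
  rw [ff_apply, Finset.sum_eq_single j]
  · rw [e4, Pi.single_eq_same, one_mul]
  · intro k _ hk
    rw [e4, Pi.single_eq_of_ne hk, zero_mul]
  · intro h; exact absurd (Finset.mem_univ _) h

/-- the operators -/
noncomputable abbrev N4 (i : Fin 4) : Module.End ℂ (Fin 4 → ℂ) := NN (lam4 l l') (F4 l m l' m') e4 i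

theorem N4_apply (i : Fin 4) (v : Fin 4 → ℂ) :
    N4 l m l' m' i v = lam4 l l' i • v + ff (F4 l m l' m') i v • e4 i := rfl

theorem hmod4 {q : ℕ} (h1 : (q : ℂ) * (l + m) = q - 1) (h2 : (q : ℂ) * (l * m) = -1)
    (h1' : (q : ℂ) * (l' + m') = q - 1) (h2' : (q : ℂ) * (l' * m') = -1) :
    HMod CoxeterMatrix.F₄ (fun _ => q) (N4 l m l' m') := by
  refine hmod_of ?_ ?_ ?_ ?_ ?_ ?_ ?_
  · intro i v
    simp only [N4_apply, map_add, map_smul, ff_e4]
    have key : ∀ x y : ℂ, (q : ℂ) * (x + y) = q - 1 → (q : ℂ) * (x * y) = -1 → ∀ (c : ℂ) (w : Fin 4 → ℂ),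
        (q : ℂ) • (x • (x • v + c • w) + c • (x • w + (y - x) • w)) = ((q : ℂ) - 1) • (x • v + c • w) + v := by
      intro x y h3 h4 c w
      have h5 : (q : ℂ) * x * x = (q - 1) * x + 1 := by linear_combination x * h3 - h4
      have h6 : (q : ℂ) * x + q * y = q - 1 := by linear_combination h3
      linear_combination (norm := module) h5 • v + h6 • (c • w)
    fin_cases i
    · exact key l m h1 h2 _ _
    · exact key l m h1 h2 _ _
    · exact key l' m' h1' h2' _ _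
    · exact key l' m' h1' h2' _ _
  all_goals
    intro v
    simp only [N4_apply, map_add, map_smul, ff_e4]
    simp only [lam4, F4, Matrix.cons_val]
    module

variable {l m l' m'}

theorem ff_eqs (v : Fin 4 → ℂ) : ff (F4 l m l' m') 0 v = (m - l) * v 0 - l * m * v 1 ∧
    ff (F4 l m l' m') 1 v = v 0 + (m - l) * v 1 - (m * l' + l * m') * v 2 ∧
    ff (F4 l m l' m') 2 v = v 1 + (m' - l') * v 2 - l' * m' * v 3 ∧
    ff (F4 l m l' m') 3 v = v 2 + (m' - l') * v 3 := by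
  refine ⟨?_, ?_, ?_, ?_⟩ <;> rw [ff_apply, Fin.sum_univ_four] <;> simp only [F4, Matrix.cons_val] <;> ring

/-- non-degenerate parameters -/
structure Nd (l m l' m' : ℂ) : Prop where
  c : l * m ≠ 0
  c' : l' * m' ≠ 0
  k : m * l' + l * m' ≠ 0
  det : ((m - l) ^ 2 + l * m) * ((m' - l') ^ 2 + l' * m') + (m * l' + l * m') * (m - l) * (m' - l') ≠ 0

theorem eq_zero4 (h : Nd l m l' m') {v : Fin 4 → ℂ} (hv : ∀ i, ff (F4 l m l' m') i v = 0) : v = 0 := by
  obtain ⟨h0, h1, h2, h3⟩ := ff_eqs (l := l) (m := m) (l' := l') (m' := m') v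
  rw [hv] at h0 h1 h2 h3
  have e3 : (((m - l) ^ 2 + l * m) * ((m' - l') ^ 2 + l' * m') + (m * l' + l * m') * (m - l) * (m' - l')) * v 3 = 0 := by
    linear_combination h0 - (m - l) * h1 + ((m - l) ^ 2 + l * m) * h2 -
      (((m - l) ^ 2 + l * m) * (m' - l') + (m * l' + l * m') * (m - l)) * h3
  have v3 : v 3 = 0 := (mul_eq_zero.1 e3).resolve_left h.det
  rw [v3, mul_zero] at h2 h3
  have v2 : v 2 = 0 := by linear_combination -h3
  rw [v2, mul_zero] at h1 h2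
  have v1 : v 1 = 0 := by linear_combination -h2
  rw [v1, mul_zero] at h1
  have v0 : v 0 = 0 := by linear_combination -h1
  funext i
  fin_cases i
  · exact v0
  · exact v1
  · exact v2
  · exact v3

theorem surj4 (h : Nd l m l' m') (w : Fin 4 → ℂ) : ∃ v, ∀ i, ff (F4 l m l' m') i v = w i := by
  let L : (Fin 4 → ℂ) →ₗ[ℂ] (Fin 4 → ℂ) := LinearMap.pi fun i => ff (F4 l m l' m') i
  have h1 : Function.Injective L := by
    rw [injective_iff_map_eq_zero]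
    intro v hv
    exact eq_zero4 h fun i => congrFun hv i
  obtain ⟨v, hv⟩ := (LinearMap.injective_iff_surjective.1 h1) w
  exact ⟨v, fun i => congrFun hv i⟩

theorem irr4 (h : Nd l m l' m') (S : Submodule ℂ (Fin 4 → ℂ)) (hS : ∀ i, ∀ v ∈ S, N4 l m l' m' i v ∈ S) :
    S = ⊥ ∨ S = ⊤ := by
  have h1 : ∀ i, ∀ v ∈ S, ff (F4 l m l' m') i v • e4 i ∈ S := by
    intro i v hv
    have h2 := S.sub_mem (hS i v hv) (S.smul_mem (lam4 l l' i) hv)
    rwa [N4_apply, add_sub_cancel_left] at h2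
  have h2 : ∀ i, ∀ v ∈ S, ff (F4 l m l' m') i v ≠ 0 → e4 i ∈ S := by
    intro i v hv h3
    have h4 := S.smul_mem (ff (F4 l m l' m') i v)⁻¹ (h1 i v hv)
    rwa [smul_smul, inv_mul_cancel₀ h3, one_smul] at h4
  have h3 : ∀ i j, e4 j ∈ S → F4 l m l' m' i j ≠ 0 → e4 i ∈ S := by
    intro i j hj hij
    exact h2 i _ hj (by rw [ff_e4]; exact hij)
  by_cases H : ∃ i, ∃ v ∈ S, ff (F4 l m l' m') i v ≠ 0
  · right
    obtain ⟨i, v, hv, hi⟩ := H
    have hi' := h2 i v hv hi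
    have f01 : F4 l m l' m' 0 1 ≠ 0 := by
      show -(l * m) ≠ 0
      exact neg_ne_zero.2 h.c
    have f10 : F4 l m l' m' 1 0 ≠ 0 := by
      show (1 : ℂ) ≠ 0
      exact one_ne_zero
    have f12 : F4 l m l' m' 1 2 ≠ 0 := by
      show -(m * l' + l * m') ≠ 0
      exact neg_ne_zero.2 h.k
    have f21 : F4 l m l' m' 2 1 ≠ 0 := by
      show (1 : ℂ) ≠ 0
      exact one_ne_zero
    have f23 : F4 l m l' m' 2 3 ≠ 0 := by
      show -(l' * m') ≠ 0
      exact neg_ne_zero.2 h.c'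
    have f32 : F4 l m l' m' 3 2 ≠ 0 := by
      show (1 : ℂ) ≠ 0
      exact one_ne_zero
    have h0 : e4 0 ∈ S := by
      fin_cases i
      · exact hi'
      · exact h3 0 1 hi' f01
      · exact h3 0 1 (h3 1 2 hi' f12) f01
      · exact h3 0 1 (h3 1 2 (h3 2 3 hi' f23) f12) f01
    have h1' : e4 1 ∈ S := h3 1 0 h0 f10
    have h2' : e4 2 ∈ S := h3 2 1 h1' f21
    have h3' : e4 3 ∈ S := h3 3 2 h2' f32
    rw [eq_top_iff]
    intro v _
    have hv' : v = ∑ i, v i • e4 i := by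
      funext j
      rw [Finset.sum_apply, Finset.sum_eq_single j]
      · rw [Pi.smul_apply, e4, Pi.single_eq_same, smul_eq_mul, mul_one]
      · intro k _ hk
        rw [Pi.smul_apply, e4, Pi.single_eq_of_ne (Ne.symm hk), smul_zero]
      · intro h; exact absurd (Finset.mem_univ _) h
    rw [hv']
    refine S.sum_mem fun i _ => S.smul_mem _ ?_
    fin_cases i
    · exact h0
    · exact h1'
    · exact h2'
    · exact h3'
  · left
    rw [eq_bot_iff]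
    intro v hv
    refine eq_zero4 h fun i => ?_
    by_contra hi
    exact H ⟨i, v, hv, hi⟩

theorem kd4_plus (h : Nd l m l' m') (K : Finset (Fin 4)) (hl : ∀ i ∈ K, lam4 l l' i = 1) :
    kd (N4 l m l' m') (K : Set (Fin 4)) = 4 - K.card := by
  refine kd_of (n := 4) (F := F4 l m l' m') K (fun v => ?_) (fun w => ?_)
  · constructor
    · intro h1 i hi
      exact (NN_plus (hl i hi) (e4_ne i) v).1 (h1 i hi)
    · intro h1 i hi
      exact (NN_plus (hl i hi) (e4_ne i) v).2 (h1 i hi)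
  · obtain ⟨v, hv⟩ := surj4 h w
    exact ⟨v, fun i _ => hv i⟩

theorem kd4_one {r : ℂ} (hr : 1 + r ≠ 0) {K : Set (Fin 4)} (i : Fin 4) (hi : i ∈ K) (hl : lam4 l l' i = -r)
    (hf : F4 l m l' m' i i = 1 + r) (hj : ∀ j ∈ K, j ≠ i → lam4 l l' j = 1 ∧ F4 l m l' m' j i = 0) :
    kd (N4 l m l' m') K = 1 := by
  refine kd_one (e4_ne i) fun v => ?_
  constructor
  · intro h1
    exact (NN_minus hr hl (by rw [ff_e4, hf]) v).1 (h1 i hi)
  · intro h1 j hjK
    by_cases hji : j = i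
    · rw [hji]
      exact (NN_minus hr hl (by rw [ff_e4, hf]) v).2 h1
    · obtain ⟨h2, h3⟩ := hj j hjK hji
      obtain ⟨c, rfl⟩ := h1
      refine (NN_plus h2 (e4_ne j) _).2 ?_
      rw [map_smul, ff_e4, h3, smul_zero]

theorem kd4_zero {r : ℂ} (hr : 1 + r ≠ 0) {K : Set (Fin 4)} (i j : Fin 4) (hij : i ≠ j) (hi : i ∈ K) (hj : j ∈ K)
    (hl : lam4 l l' i = -r) (hf : F4 l m l' m' i i = 1 + r) (hl' : lam4 l l' j = -r) (hf' : F4 l m l' m' j j = 1 + r) :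
    kd (N4 l m l' m') K = 0 := by
  refine kd_zero fun v hv => ?_
  obtain ⟨c, hc⟩ := (NN_minus hr hl (by rw [ff_e4, hf]) v).1 (hv i hi)
  obtain ⟨c', hc'⟩ := (NN_minus hr hl' (by rw [ff_e4, hf']) v).1 (hv j hj)
  have h1 : c = 0 := by
    have h2 := congrFun (hc.trans hc'.symm) i
    rw [Pi.smul_apply, Pi.smul_apply, e4, e4, Pi.single_eq_same, Pi.single_eq_of_ne hij, smul_zero, smul_eq_mul,
      mul_one] at h2
    exact h2
  rw [← hc, h1, zero_smul]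

end Four

/-! ### the real number `1/q` -/

section Rr

variable {q : ℕ}

/-- the parameter -/
noncomputable def rr (q : ℕ) : ℂ := ((1 / (q : ℝ) : ℝ) : ℂ)

theorem q_rr (hq : 2 ≤ q) : (q : ℂ) * rr q = 1 := by
  have h1 : (q : ℝ) ≠ 0 := by
    have : (2 : ℝ) ≤ q := by exact_mod_cast hq
    linarith
  have h2 : (q : ℝ) * (1 / (q : ℝ)) = 1 := mul_one_div_cancel h1
  have h3 : (((q : ℝ) * (1 / (q : ℝ)) : ℝ) : ℂ) = 1 := by rw [h2]; rfl
  rw [Complex.ofReal_mul, Complex.ofReal_natCast] at h3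
  exact h3

theorem rr_pos (hq : 2 ≤ q) : 0 < 1 / (q : ℝ) := by
  have : (2 : ℝ) ≤ q := by exact_mod_cast hq
  positivity

theorem rr_ne (hq : 2 ≤ q) {x : ℝ → ℝ} (hx : ∀ r : ℝ, 0 < r → 0 < x r) {y : ℂ} (hy : y = ((x (1 / (q : ℝ)) : ℝ) : ℂ)) :
    y ≠ 0 := by
  rw [hy, Complex.ofReal_ne_zero]
  exact (hx _ (rr_pos hq)).ne'

theorem rr_ne0 (hq : 2 ≤ q) : rr q ≠ 0 := rr_ne hq (x := fun r => r) (fun _ h => h) rfl

theorem one_add_rr (hq : 2 ≤ q) : 1 + rr q ≠ 0 :=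
  rr_ne hq (x := fun r => 1 + r) (fun _ _ => by positivity) (by rw [rr]; push_cast; rfl)

theorem det2_rr (hq : 2 ≤ q) : 1 + rr q + rr q ^ 2 ≠ 0 :=
  rr_ne hq (x := fun r => 1 + r + r ^ 2) (fun _ _ => by positivity) (by rw [rr]; push_cast; rfl)

theorem nd_eq (hq : 2 ≤ q) {l m : ℂ} (hlm : l * m = -rr q) (hd : (m - l) ^ 2 = (1 + rr q) ^ 2) : Nd l m l m := by
  have h0 := rr_ne0 hq
  refine ⟨?_, ?_, ?_, ?_⟩
  · rw [hlm]; exact neg_ne_zero.2 h0
  · rw [hlm]; exact neg_ne_zero.2 h0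
  · have : m * l + l * m = -(2 * rr q) := by linear_combination 2 * hlm
    rw [this]
    exact neg_ne_zero.2 (mul_ne_zero two_ne_zero h0)
  · have : ((m - l) ^ 2 + l * m) * ((m - l) ^ 2 + l * m) + (m * l + l * m) * (m - l) * (m - l) =
        1 - rr q ^ 2 + rr q ^ 4 := by
      have h3 : ((m - l) ^ 2 + l * m) * ((m - l) ^ 2 + l * m) + (m * l + l * m) * (m - l) * (m - l) =
        ((m - l) ^ 2 + l * m) * ((m - l) ^ 2 + l * m) + 2 * (l * m) * (m - l) ^ 2 := by ring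
      rw [h3, hd, hlm]
      ring
    rw [this]
    refine rr_ne hq (x := fun r => 1 - r ^ 2 + r ^ 4) (fun r _ => ?_) (by rw [rr]; push_cast; rfl)
    nlinarith [sq_nonneg (r ^ 2 - 1), sq_nonneg (r ^ 2 - 1 / 2)]

theorem nd_ne (hq : 2 ≤ q) {l m : ℂ} (hlm : l * m = -rr q) (hd : (m - l) ^ 2 = (1 + rr q) ^ 2) : Nd l m m l := by
  have h0 := rr_ne0 hq
  refine ⟨?_, ?_, ?_, ?_⟩
  · rw [hlm]; exact neg_ne_zero.2 h0
  · rw [mul_comm, hlm]; exact neg_ne_zero.2 h0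
  · have : m * m + l * l = 1 + rr q ^ 2 := by linear_combination hd + 2 * hlm
    rw [this]
    exact rr_ne hq (x := fun r => 1 + r ^ 2) (fun _ _ => by positivity) (by rw [rr]; push_cast; rfl)
  · have : ((m - l) ^ 2 + l * m) * ((l - m) ^ 2 + m * l) + (m * m + l * l) * (m - l) * (l - m) = rr q ^ 2 := by
      have h3 : ((m - l) ^ 2 + l * m) * ((l - m) ^ 2 + m * l) + (m * m + l * l) * (m - l) * (l - m) =
        (l * m) ^ 2 := by ring
      rw [h3, hlm]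
      ring
    rw [this]
    exact pow_ne_zero 2 h0

end Rr

/-! ### the modules with their numbers -/

/-- an irreducible module of dimension `a0` with the given dimensions of fixed spaces -/
def MdN (q n : ℕ) (N : Fin 4 → Module.End ℂ (Fin n → ℂ)) (a0 a1 a2 a3 a4 a5 a6 a7 : ℤ) : Prop :=
  HMod CoxeterMatrix.F₄ (fun _ => q) N ∧ 0 < n ∧
    (∀ S : Submodule ℂ (Fin n → ℂ), (∀ i, ∀ v ∈ S, N i v ∈ S) → S = ⊥ ∨ S = ⊤) ∧ (n : ℤ) = a0 ∧
    kd N {0} = a1 ∧ kd N {3} = a2 ∧ kd N {0, 1} = a3 ∧ kd N {2, 3} = a4 ∧ kd N {0, 3} = a5 ∧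
    kd N {0, 1, 3} = a6 ∧ kd N {0, 2, 3} = a7

/-- existence of such a module -/
def Md (q : ℕ) (a0 a1 a2 a3 a4 a5 a6 a7 : ℤ) : Prop :=
  ∃ (n : ℕ) (N : Fin 4 → Module.End ℂ (Fin n → ℂ)), MdN q n N a0 a1 a2 a3 a4 a5 a6 a7

section Refl

variable {q : ℕ}

theorem hm4 (hq : 2 ≤ q) {l m l' m' : ℂ} (h1 : l + m = 1 - rr q) (h2 : l * m = -rr q) (h1' : l' + m' = 1 - rr q)
    (h2' : l' * m' = -rr q) : HMod CoxeterMatrix.F₄ (fun _ => q) (N4 l m l' m') := by
  have h3 := q_rr hq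
  refine hmod4 l m l' m' ?_ ?_ ?_ ?_
  · rw [h1]; linear_combination -h3
  · rw [h2]; linear_combination -h3
  · rw [h1']; linear_combination -h3
  · rw [h2']; linear_combination -h3

theorem md_pp' (hq : 2 ≤ q) : MdN q 4 (N4 1 (-rr q) 1 (-rr q)) 4 3 3 2 2 2 1 1 := by
  have hN : Nd (1 : ℂ) (-rr q) 1 (-rr q) := nd_eq hq (by ring) (by ring)
  have hl : ∀ i, lam4 (1 : ℂ) 1 i = 1 := by
    intro i
    fin_cases i <;> rfl
  have key : ∀ (K : Finset (Fin 4)), kd (N4 (1 : ℂ) (-rr q) 1 (-rr q)) (K : Set (Fin 4)) = 4 - K.card :=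
    fun K => kd4_plus hN K fun i _ => hl i
  refine ⟨hm4 hq (by ring) (by ring) (by ring) (by ring), by norm_num, irr4 hN, rfl,
    ?_, ?_, ?_, ?_, ?_, ?_, ?_⟩
  · have := key {0}
    simpa using this
  · have := key {3}
    simpa using this
  · have := key {0, 1}
    simpa using this
  · have := key {2, 3}
    simpa using this
  · have := key {0, 3}
    simpa using this
  · have := key {0, 1, 3}
    simpa using this
  · have := key {0, 2, 3}
    simpa using this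

theorem md_pp (hq : 2 ≤ q) : Md q 4 3 3 2 2 2 1 1 := ⟨4, _, md_pp' hq⟩

theorem md_pm' (hq : 2 ≤ q) : MdN q 4 (N4 1 (-rr q) (-rr q) 1) 4 3 1 2 0 1 1 0 := by
  have hN : Nd (1 : ℂ) (-rr q) (-rr q) 1 := nd_ne hq (by ring) (by ring)
  have h1 := one_add_rr hq
  have key : ∀ (K : Finset (Fin 4)), (∀ i ∈ K, lam4 (1 : ℂ) (-rr q) i = 1) →
      kd (N4 (1 : ℂ) (-rr q) (-rr q) 1) (K : Set (Fin 4)) = 4 - K.card :=
    fun K hK => kd4_plus hN K hK
  have f3 : F4 (1 : ℂ) (-rr q) (-rr q) 1 3 3 = 1 + rr q := by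
    show (1 : ℂ) - -rr q = _
    ring
  have f2 : F4 (1 : ℂ) (-rr q) (-rr q) 1 2 2 = 1 + rr q := by
    show (1 : ℂ) - -rr q = _
    ring
  refine ⟨hm4 hq (by ring) (by ring) (by ring) (by ring), by norm_num, irr4 hN, rfl,
    ?_, ?_, ?_, ?_, ?_, ?_, ?_⟩
  · have := key {0} (by intro i hi; rw [Finset.mem_singleton] at hi; subst hi; rfl)
    simpa using this
  · refine kd4_one h1 3 rfl rfl f3 ?_
    rintro j rfl hj
    exact absurd rfl hj
  · have := key {0, 1} (by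
      intro i hi
      rw [Finset.mem_insert, Finset.mem_singleton] at hi
      rcases hi with rfl | rfl <;> rfl)
    simpa using this
  · exact kd4_zero h1 2 3 (by decide) (by simp) (by simp) rfl f2 rfl f3
  · refine kd4_one h1 3 (by simp) rfl f3 ?_
    rintro j (rfl | rfl) hj
    · exact ⟨rfl, rfl⟩
    · exact absurd rfl hj
  · refine kd4_one h1 3 (by simp) rfl f3 ?_
    rintro j (rfl | rfl | rfl) hj
    · exact ⟨rfl, rfl⟩
    · exact ⟨rfl, rfl⟩
    · exact absurd rfl hj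
  · exact kd4_zero h1 2 3 (by decide) (by simp) (by simp) rfl f2 rfl f3

theorem md_pm (hq : 2 ≤ q) : Md q 4 3 1 2 0 1 1 0 := ⟨4, _, md_pm' hq⟩

theorem md_mp' (hq : 2 ≤ q) : MdN q 4 (N4 (-rr q) 1 1 (-rr q)) 4 1 3 0 2 1 0 1 := by
  have hN : Nd (-rr q) (1 : ℂ) 1 (-rr q) := nd_ne hq (by ring) (by ring)
  have h1 := one_add_rr hq
  have key : ∀ (K : Finset (Fin 4)), (∀ i ∈ K, lam4 (-rr q) 1 i = 1) →
      kd (N4 (-rr q) 1 1 (-rr q)) (K : Set (Fin 4)) = 4 - K.card :=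
    fun K hK => kd4_plus hN K hK
  have f0 : F4 (-rr q) 1 1 (-rr q) 0 0 = 1 + rr q := by
    show (1 : ℂ) - -rr q = _
    ring
  have f1 : F4 (-rr q) 1 1 (-rr q) 1 1 = 1 + rr q := by
    show (1 : ℂ) - -rr q = _
    ring
  refine ⟨hm4 hq (by ring) (by ring) (by ring) (by ring), by norm_num, irr4 hN, rfl,
    ?_, ?_, ?_, ?_, ?_, ?_, ?_⟩
  · refine kd4_one h1 0 rfl rfl f0 ?_
    rintro j rfl hj
    exact absurd rfl hj
  · have := key {3} (by intro i hi; rw [Finset.mem_singleton] at hi; subst hi; rfl)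
    simpa using this
  · exact kd4_zero h1 0 1 (by decide) (by simp) (by simp) rfl f0 rfl f1
  · have := key {2, 3} (by
      intro i hi
      rw [Finset.mem_insert, Finset.mem_singleton] at hi
      rcases hi with rfl | rfl <;> rfl)
    simpa using this
  · refine kd4_one h1 0 (by simp) rfl f0 ?_
    rintro j (rfl | rfl) hj
    · exact absurd rfl hj
    · exact ⟨rfl, rfl⟩
  · exact kd4_zero h1 0 1 (by decide) (by simp) (by simp) rfl f0 rfl f1
  · refine kd4_one h1 0 (by simp) rfl f0 ?_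
    rintro j (rfl | rfl | rfl) hj
    · exact absurd rfl hj
    · exact ⟨rfl, rfl⟩
    · exact ⟨rfl, rfl⟩

theorem md_mp (hq : 2 ≤ q) : Md q 4 1 3 0 2 1 0 1 := ⟨4, _, md_mp' hq⟩

theorem md_mm' (hq : 2 ≤ q) : MdN q 4 (N4 (-rr q) 1 (-rr q) 1) 4 1 1 0 0 0 0 0 := by
  have hN : Nd (-rr q) (1 : ℂ) (-rr q) 1 := nd_eq hq (by ring) (by ring)
  have h1 := one_add_rr hq
  have f0 : F4 (-rr q) 1 (-rr q) 1 0 0 = 1 + rr q := by
    show (1 : ℂ) - -rr q = _
    ring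
  have f1 : F4 (-rr q) 1 (-rr q) 1 1 1 = 1 + rr q := by
    show (1 : ℂ) - -rr q = _
    ring
  have f2 : F4 (-rr q) 1 (-rr q) 1 2 2 = 1 + rr q := by
    show (1 : ℂ) - -rr q = _
    ring
  have f3 : F4 (-rr q) 1 (-rr q) 1 3 3 = 1 + rr q := by
    show (1 : ℂ) - -rr q = _
    ring
  refine ⟨hm4 hq (by ring) (by ring) (by ring) (by ring), by norm_num, irr4 hN, rfl,
    ?_, ?_, ?_, ?_, ?_, ?_, ?_⟩
  · refine kd4_one h1 0 rfl rfl f0 ?_
    rintro j rfl hj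
    exact absurd rfl hj
  · refine kd4_one h1 3 rfl rfl f3 ?_
    rintro j rfl hj
    exact absurd rfl hj
  · exact kd4_zero h1 0 1 (by decide) (by simp) (by simp) rfl f0 rfl f1
  · exact kd4_zero h1 2 3 (by decide) (by simp) (by simp) rfl f2 rfl f3
  · exact kd4_zero h1 0 3 (by decide) (by simp) (by simp) rfl f0 rfl f3
  · exact kd4_zero h1 0 3 (by decide) (by simp) (by simp) rfl f0 rfl f3
  · exact kd4_zero h1 0 3 (by decide) (by simp) (by simp) rfl f0 rfl f3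

theorem md_mm (hq : 2 ≤ q) : Md q 4 1 1 0 0 0 0 0 := ⟨4, _, md_mm' hq⟩

theorem pm_apply (r : ℂ) (x : Fin 4 → ℂ) :
    N4 1 (-r) (-r) 1 0 x = ![-r * x 0 + r * x 1, x 1, x 2, x 3] ∧
    N4 1 (-r) (-r) 1 1 x = ![x 0, x 0 - r * x 1 - (1 + r ^ 2) * x 2, x 2, x 3] ∧
    N4 1 (-r) (-r) 1 2 x = ![-r * x 0, -r * x 1, x 1 + x 2 + r * x 3, -r * x 3] ∧
    N4 1 (-r) (-r) 1 3 x = ![-r * x 0, -r * x 1, -r * x 2, x 2 + x 3] := by
  obtain ⟨h0, h1, h2, h3⟩ := ff_eqs (l := 1) (m := -r) (l' := -r) (m' := 1) x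
  refine ⟨?_, ?_, ?_, ?_⟩ <;> rw [N4_apply] <;> first | rw [h0] | rw [h1] | rw [h2] | rw [h3]
  all_goals
    funext j
    fin_cases j <;> simp [lam4, e4] <;> ring_nf

theorem mp_apply (r : ℂ) (x : Fin 4 → ℂ) :
    N4 (-r) 1 1 (-r) 0 x = ![x 0 + r * x 1, -r * x 1, -r * x 2, -r * x 3] ∧
    N4 (-r) 1 1 (-r) 1 x = ![-r * x 0, x 0 + x 1 - (1 + r ^ 2) * x 2, -r * x 2, -r * x 3] ∧
    N4 (-r) 1 1 (-r) 2 x = ![x 0, x 1, x 1 - r * x 2 + r * x 3, x 3] ∧
    N4 (-r) 1 1 (-r) 3 x = ![x 0, x 1, x 2, x 2 - r * x 3] := by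
  obtain ⟨h0, h1, h2, h3⟩ := ff_eqs (l := -r) (m := 1) (l' := 1) (m' := -r) x
  refine ⟨?_, ?_, ?_, ?_⟩ <;> rw [N4_apply] <;> first | rw [h0] | rw [h1] | rw [h2] | rw [h3]
  all_goals
    funext j
    fin_cases j <;> simp [lam4, e4] <;> ring_nf

end Refl

/-! ### the linear modules -/

section Lin

variable {q : ℕ}

/-- the operators -/
noncomputable def N1 (s : Fin 4 → ℂ) (i : Fin 4) : Module.End ℂ (Fin 1 → ℂ) := s i • LinearMap.id

theorem N1_apply (s : Fin 4 → ℂ) (i : Fin 4) (v : Fin 1 → ℂ) : N1 s i v = s i • v := rfl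

theorem kd1_one {s : Fin 4 → ℂ} {K : Set (Fin 4)} (hK : ∀ i ∈ K, s i = 1) : kd (N1 s) K = 1 := by
  refine (kd_id fun v i hi => ?_).trans Nat.cast_one
  rw [N1_apply, hK i hi, one_smul]

theorem kd1_zero {s : Fin 4 → ℂ} {r : ℂ} (hr : 1 + r ≠ 0) {K : Set (Fin 4)} (i : Fin 4) (hi : i ∈ K) (hs : s i = -r) :
    kd (N1 s) K = 0 := by
  refine kd_zero fun v hv => ?_
  have h1 := hv i hi
  rw [N1_apply, hs] at h1
  have h2 : (1 + r) • v = 0 := by
    linear_combination (norm := module) -(1 : ℂ) • h1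
  exact (smul_eq_zero.1 h2).resolve_left hr

theorem irr1 {s : Fin 4 → ℂ} (S : Submodule ℂ (Fin 1 → ℂ)) (_ : ∀ i, ∀ v ∈ S, N1 s i v ∈ S) :
    S = ⊥ ∨ S = ⊤ := by
  by_cases h : S = ⊥
  · exact Or.inl h
  · right
    obtain ⟨v, hv, hv0⟩ := S.exists_mem_ne_zero_of_ne_bot h
    have h0 : v 0 ≠ 0 := by
      intro h1
      apply hv0
      funext i
      rw [Subsingleton.elim i 0]
      exact h1
    rw [eq_top_iff]
    intro w _
    have : w = (w 0 * (v 0)⁻¹) • v := by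
      funext i
      rw [Subsingleton.elim i 0, Pi.smul_apply, smul_eq_mul, inv_mul_cancel_right₀ h0]
    rw [this]
    exact S.smul_mem _ hv

theorem hm1 (hq : 2 ≤ q) {s : Fin 4 → ℂ} (hs : ∀ i, s i = 1 ∨ s i = -rr q) (h01 : s 0 = s 1) (h23 : s 2 = s 3) :
    HMod CoxeterMatrix.F₄ (fun _ => q) (N1 s) := by
  have h3 := q_rr hq
  refine hmod_of ?_ ?_ ?_ ?_ ?_ ?_ ?_
  · intro i v
    simp only [N1_apply]
    have key : (q : ℂ) * s i * s i = (q - 1) * s i + 1 := by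
      rcases hs i with h | h
      · rw [h]; ring
      · rw [h]; linear_combination (1 + rr q) * h3
    linear_combination (norm := module) key • v
  all_goals
    intro v
    simp only [N1_apply]
  · rw [h01]
  · module
  · rw [h23]
  all_goals module

/-- the four linear characters -/
noncomputable def sg (a b : ℂ) : Fin 4 → ℂ := ![a, a, b, b]

theorem md1' (hq : 2 ≤ q) : MdN q 1 (N1 (sg 1 1)) 1 1 1 1 1 1 1 1 := by
  have hs : ∀ i, sg 1 1 i = 1 := by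
    intro i
    fin_cases i <;> rfl
  refine ⟨hm1 hq (fun i => Or.inl (hs i)) rfl rfl, by norm_num, irr1, rfl, ?_, ?_, ?_, ?_, ?_, ?_, ?_⟩
  all_goals exact kd1_one fun i _ => hs i

theorem md1 (hq : 2 ≤ q) : Md q 1 1 1 1 1 1 1 1 := ⟨1, _, md1' hq⟩

theorem md2' (hq : 2 ≤ q) : MdN q 1 (N1 (sg 1 (-rr q))) 1 1 0 1 0 0 0 0 := by
  have hr := one_add_rr hq
  refine ⟨hm1 hq ?_ rfl rfl, by norm_num, irr1, rfl, ?_, ?_, ?_, ?_, ?_, ?_, ?_⟩
  · intro i
    fin_cases i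
    · exact Or.inl rfl
    · exact Or.inl rfl
    · exact Or.inr rfl
    · exact Or.inr rfl
  · refine kd1_one ?_
    rintro i rfl
    rfl
  · exact kd1_zero hr 3 (by simp) rfl
  · refine kd1_one ?_
    rintro i (rfl | rfl) <;> rfl
  all_goals exact kd1_zero hr 3 (by simp) rfl

theorem md2 (hq : 2 ≤ q) : Md q 1 1 0 1 0 0 0 0 := ⟨1, _, md2' hq⟩

theorem md3' (hq : 2 ≤ q) : MdN q 1 (N1 (sg (-rr q) 1)) 1 0 1 0 1 0 0 0 := by
  have hr := one_add_rr hq
  refine ⟨hm1 hq ?_ rfl rfl, by norm_num, irr1, rfl, ?_, ?_, ?_, ?_, ?_, ?_, ?_⟩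
  · intro i
    fin_cases i
    · exact Or.inr rfl
    · exact Or.inr rfl
    · exact Or.inl rfl
    · exact Or.inl rfl
  · exact kd1_zero hr 0 (by simp) rfl
  · refine kd1_one ?_
    rintro i rfl
    rfl
  · exact kd1_zero hr 0 (by simp) rfl
  · refine kd1_one ?_
    rintro i (rfl | rfl) <;> rfl
  all_goals exact kd1_zero hr 0 (by simp) rfl

theorem md3 (hq : 2 ≤ q) : Md q 1 0 1 0 1 0 0 0 := ⟨1, _, md3' hq⟩

theorem md4' (hq : 2 ≤ q) : MdN q 1 (N1 (sg (-rr q) (-rr q))) 1 0 0 0 0 0 0 0 := by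
  have hr := one_add_rr hq
  have hs : ∀ i, sg (-rr q) (-rr q) i = -rr q := by
    intro i
    fin_cases i <;> rfl
  refine ⟨hm1 hq (fun i => Or.inr (hs i)) rfl rfl, by norm_num, irr1, rfl,
    ?_, ?_, ?_, ?_, ?_, ?_, ?_⟩
  · exact kd1_zero hr 0 (by simp) rfl
  · exact kd1_zero hr 3 (by simp) rfl
  · exact kd1_zero hr 0 (by simp) rfl
  all_goals exact kd1_zero hr 3 (by simp) rfl

theorem md4 (hq : 2 ≤ q) : Md q 1 0 0 0 0 0 0 0 := ⟨1, _, md4' hq⟩

end Lin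

/-! ### the modules of dimension 2 -/

section Two

variable {q : ℕ}

/-- the functionals -/
def F2 (r : ℂ) (b : Bool) : Fin 4 → Fin 2 → ℂ :=
  if b then ![![-(1 + r), r], ![1, -(1 + r)], ![0, 0], ![0, 0]] else ![![0, 0], ![0, 0], ![-(1 + r), r], ![1, -(1 + r)]]

/-- the vectors -/
def e2 : Fin 4 → Fin 2 → ℂ := ![![1, 0], ![0, 1], ![1, 0], ![0, 1]]

/-- the scalars -/
def lam2 (s : ℂ) (b : Bool) : Fin 4 → ℂ := if b then ![1, 1, s, s] else ![s, s, 1, 1]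

theorem e2_ne (i : Fin 4) : e2 i ≠ 0 := by
  fin_cases i
  · exact fun h => one_ne_zero (congrFun h 0 : (1 : ℂ) = 0)
  · exact fun h => one_ne_zero (congrFun h 1 : (1 : ℂ) = 0)
  · exact fun h => one_ne_zero (congrFun h 0 : (1 : ℂ) = 0)
  · exact fun h => one_ne_zero (congrFun h 1 : (1 : ℂ) = 0)

/-- the operators -/
noncomputable abbrev N2 (r s : ℂ) (b : Bool) (i : Fin 4) : Module.End ℂ (Fin 2 → ℂ) := NN (lam2 s b) (F2 r b) e2 i

theorem N2_apply (r s : ℂ) (b : Bool) (i : Fin 4) (v : Fin 2 → ℂ) :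
    N2 r s b i v = lam2 s b i • v + ff (F2 r b) i v • e2 i := rfl

theorem ff2 (r : ℂ) (b : Bool) (i : Fin 4) (v : Fin 2 → ℂ) :
    ff (F2 r b) i v = v 0 * F2 r b i 0 + v 1 * F2 r b i 1 := by
  rw [ff_apply, Fin.sum_univ_two]

theorem N2_c (r s : ℂ) (b : Bool) (i : Fin 4) (v : Fin 2 → ℂ) (j : Fin 2) :
    N2 r s b i v j = lam2 s b i * v j + (v 0 * F2 r b i 0 + v 1 * F2 r b i 1) * e2 i j := by
  rw [N2_apply, Pi.add_apply, Pi.smul_apply, Pi.smul_apply, smul_eq_mul, smul_eq_mul, ff2]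

theorem hm2 (hq : 2 ≤ q) {s : ℂ} (hs : s = 1 ∨ s = -rr q) (b : Bool) :
    HMod CoxeterMatrix.F₄ (fun _ => q) (N2 (rr q) s b) := by
  have h3 := q_rr hq
  have key : (q : ℂ) * s * s = (q - 1) * s + 1 := by
    rcases hs with h | h
    · rw [h]; ring
    · rw [h]; linear_combination (1 + rr q) * h3
  refine hmod_of ?_ ?_ ?_ ?_ ?_ ?_ ?_
  · intro i v
    funext j
    simp only [N2_c, Pi.smul_apply, Pi.add_apply, smul_eq_mul]
    cases b
    · fin_cases i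
      · simp only [lam2, F2, e2]
        simp
        linear_combination v j * key
      · simp only [lam2, F2, e2]
        simp
        linear_combination v j * key
      · fin_cases j
        · simp only [lam2, F2, e2]
          simp
          linear_combination ((1 + rr q) * v 0 - v 1 * rr q) * h3
        · simp only [lam2, F2, e2]
          simp
          ring
      · fin_cases j
        · simp only [lam2, F2, e2]
          simp
          ring
        · simp only [lam2, F2, e2]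
          simp
          linear_combination ((1 + rr q) * v 1 - v 0) * h3
    · fin_cases i
      · fin_cases j
        · simp only [lam2, F2, e2]
          simp
          linear_combination ((1 + rr q) * v 0 - v 1 * rr q) * h3
        · simp only [lam2, F2, e2]
          simp
          ring
      · fin_cases j
        · simp only [lam2, F2, e2]
          simp
          ring
        · simp only [lam2, F2, e2]
          simp
          linear_combination ((1 + rr q) * v 1 - v 0) * h3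
      · simp only [lam2, F2, e2]
        simp
        linear_combination v j * key
      · simp only [lam2, F2, e2]
        simp
        linear_combination v j * key
  all_goals
    intro v
    funext j
    cases b <;> fin_cases j <;> simp only [N2_c] <;> simp only [lam2, F2, e2] <;> simp <;> ring

theorem zero2 (hq : 2 ≤ q) {b : Bool} {v : Fin 2 → ℂ} (hv : ∀ i, ff (F2 (rr q) b) i v = 0) : v = 0 := by
  have hd := det2_rr hq
  have key : v 0 * -(1 + rr q) + v 1 * rr q = 0 → v 0 * 1 + v 1 * -(1 + rr q) = 0 → v = 0 := by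
    intro h1 h2
    have h3 : (1 + rr q + rr q ^ 2) * v 1 = 0 := by linear_combination -h1 - (1 + rr q) * h2
    have h4 : v 1 = 0 := (mul_eq_zero.1 h3).resolve_left hd
    rw [h4, zero_mul, add_zero, mul_one] at h2
    funext j
    fin_cases j
    · exact h2
    · exact h4
  cases b
  · refine key ?_ ?_
    · exact (ff2 (rr q) false 2 v).symm.trans (hv 2)
    · exact (ff2 (rr q) false 3 v).symm.trans (hv 3)
  · refine key ?_ ?_
    · exact (ff2 (rr q) true 0 v).symm.trans (hv 0)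
    · exact (ff2 (rr q) true 1 v).symm.trans (hv 1)

theorem F2_row (hq : 2 ≤ q) (b : Bool) : ∃ i j : Fin 4, e2 i = Pi.single 0 1 ∧ e2 j = Pi.single 1 1 ∧
    (∀ k, k ≠ i → k ≠ j → ∀ v, ff (F2 (rr q) b) k v = 0) ∧ ff (F2 (rr q) b) i (e2 j) ≠ 0 ∧
      ff (F2 (rr q) b) j (e2 i) ≠ 0 := by
  have h0 := rr_ne0 hq
  have e0 : (![1, 0] : Fin 2 → ℂ) = Pi.single 0 1 := by
    funext k
    fin_cases k <;> rfl
  have e1 : (![0, 1] : Fin 2 → ℂ) = Pi.single 1 1 := by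
    funext k
    fin_cases k <;> rfl
  cases b
  · refine ⟨2, 3, e0, e1, ?_, ?_, ?_⟩
    · intro k hk hk' v
      rw [ff2]
      fin_cases k
      · show v 0 * 0 + v 1 * 0 = 0
        ring
      · show v 0 * 0 + v 1 * 0 = 0
        ring
      · exact absurd rfl hk
      · exact absurd rfl hk'
    · rw [ff2]
      show (0 : ℂ) * -(1 + rr q) + 1 * rr q ≠ 0
      rwa [zero_mul, zero_add, one_mul]
    · rw [ff2]
      show (1 : ℂ) * 1 + 0 * -(1 + rr q) ≠ 0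
      rw [zero_mul, add_zero, one_mul]
      exact one_ne_zero
  · refine ⟨0, 1, e0, e1, ?_, ?_, ?_⟩
    · intro k hk hk' v
      rw [ff2]
      fin_cases k
      · exact absurd rfl hk
      · exact absurd rfl hk'
      · show v 0 * 0 + v 1 * 0 = 0
        ring
      · show v 0 * 0 + v 1 * 0 = 0
        ring
    · rw [ff2]
      show (0 : ℂ) * -(1 + rr q) + 1 * rr q ≠ 0
      rwa [zero_mul, zero_add, one_mul]
    · rw [ff2]
      show (1 : ℂ) * 1 + 0 * -(1 + rr q) ≠ 0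
      rw [zero_mul, add_zero, one_mul]
      exact one_ne_zero

theorem irr2 (hq : 2 ≤ q) {s : ℂ} {b : Bool} (S : Submodule ℂ (Fin 2 → ℂ))
    (hS : ∀ i, ∀ v ∈ S, N2 (rr q) s b i v ∈ S) : S = ⊥ ∨ S = ⊤ := by
  obtain ⟨i, j, ei, ej, hij, h1, h2⟩ := F2_row hq b
  have h3 : ∀ i, ∀ v ∈ S, ff (F2 (rr q) b) i v ≠ 0 → e2 i ∈ S := by
    intro i v hv h4
    have h5 := S.sub_mem (hS i v hv) (S.smul_mem (lam2 s b i) hv)
    rw [N2_apply, add_sub_cancel_left] at h5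
    have h6 := S.smul_mem (ff (F2 (rr q) b) i v)⁻¹ h5
    rwa [smul_smul, inv_mul_cancel₀ h4, one_smul] at h6
  by_cases H : ∃ k, ∃ v ∈ S, ff (F2 (rr q) b) k v ≠ 0
  · right
    obtain ⟨k, v, hv, hk⟩ := H
    have h4 : e2 i ∈ S ∧ e2 j ∈ S := by
      by_cases hki : k = i
      · have h5 := h3 k v hv hk
        rw [hki] at h5
        exact ⟨h5, h3 j _ h5 h2⟩
      · by_cases hkj : k = j
        · have h5 := h3 k v hv hk
          rw [hkj] at h5
          exact ⟨h3 i _ h5 h1, h5⟩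
        · exact absurd (hij k hki hkj v) hk
    rw [eq_top_iff]
    intro w _
    have hw : w = w 0 • e2 i + w 1 • e2 j := by
      rw [ei, ej]
      funext k
      fin_cases k
      · simp
      · simp
    rw [hw]
    exact S.add_mem (S.smul_mem _ h4.1) (S.smul_mem _ h4.2)
  · left
    rw [eq_bot_iff]
    intro v hv
    refine zero2 hq (b := b) fun k => ?_
    by_contra hk
    exact H ⟨k, v, hv, hk⟩

theorem ff_surj (hq : 2 ≤ q) (b : Bool) {i j : Fin 4} (hi : i = if b then 0 else 2) (hj : j = if b then 1 else 3)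
    (x y : ℂ) : ∃ v, ff (F2 (rr q) b) i v = x ∧ ff (F2 (rr q) b) j v = y := by
  have hd := det2_rr hq
  have hF : ∀ v : Fin 2 → ℂ, ff (F2 (rr q) b) i v = v 0 * -(1 + rr q) + v 1 * rr q ∧
      ff (F2 (rr q) b) j v = v 0 * 1 + v 1 * -(1 + rr q) := by
    intro v
    rw [ff2, ff2]
    cases b
    · subst hi hj
      exact ⟨rfl, rfl⟩
    · subst hi hj
      exact ⟨rfl, rfl⟩
  refine ⟨(1 + rr q + rr q ^ 2)⁻¹ • ![-(1 + rr q) * x - rr q * y, -x - (1 + rr q) * y], ?_⟩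
  rw [(hF _).1, (hF _).2]
  simp only [Pi.smul_apply, smul_eq_mul, Matrix.cons_val_zero, Matrix.cons_val_one]
  constructor
  · field_simp
    ring
  · field_simp
    ring

theorem kd2_zero (hq : 2 ≤ q) {b : Bool} {K : Set (Fin 4)} (i : Fin 4) (hi : i ∈ K) (hl : lam2 (-rr q) b i = -rr q)
    (hf : ∀ v, ff (F2 (rr q) b) i v = 0) : kd (N2 (rr q) (-rr q) b) K = 0 := by
  refine kd_zero fun v hv => ?_
  have h1 := hv i hi
  rw [N2_apply, hl, hf, zero_smul, add_zero] at h1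
  have h2 : (1 + rr q) • v = 0 := by
    linear_combination (norm := module) -(1 : ℂ) • h1
  exact (smul_eq_zero.1 h2).resolve_left (one_add_rr hq)

theorem kd2_of (hq : 2 ≤ q) {b : Bool} {s : ℂ} {K : Set (Fin 4)} (K1 : Finset (Fin 4))
    (h1 : ∀ i ∈ K1, i ∈ K ∧ lam2 s b i = 1 ∧ i ∈ ({if b then 0 else 2, if b then 1 else 3} : Finset (Fin 4)))
    (h2 : ∀ i ∈ K, i ∉ K1 → lam2 s b i = 1 ∧ ∀ v, ff (F2 (rr q) b) i v = 0) :
    kd (N2 (rr q) s b) K = 2 - K1.card := by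
  refine kd_of (n := 2) (F := F2 (rr q) b) K1 (fun v => ?_) fun w => ?_
  · constructor
    · intro h i hi
      exact (NN_plus (h1 i hi).2.1 (e2_ne i) v).1 (h i (h1 i hi).1)
    · intro h i hi
      by_cases h3 : i ∈ K1
      · exact (NN_plus (h1 i h3).2.1 (e2_ne i) v).2 (h i h3)
      · exact (NN_plus (h2 i hi h3).1 (e2_ne i) v).2 ((h2 i hi h3).2 v)
  · obtain ⟨v, hv, hv'⟩ := ff_surj hq b rfl rfl (w (if b then 0 else 2)) (w (if b then 1 else 3))
    refine ⟨v, fun i hi => ?_⟩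
    have h3 := (h1 i hi).2.2
    rw [Finset.mem_insert, Finset.mem_singleton] at h3
    rcases h3 with rfl | rfl
    · exact hv
    · exact hv'

theorem ff_t (r : ℂ) (v : Fin 2 → ℂ) : ff (F2 r true) 2 v = 0 ∧ ff (F2 r true) 3 v = 0 := by
  rw [ff2, ff2]
  constructor
  · show v 0 * 0 + v 1 * 0 = 0
    ring
  · show v 0 * 0 + v 1 * 0 = 0
    ring

theorem ff_f (r : ℂ) (v : Fin 2 → ℂ) : ff (F2 r false) 0 v = 0 ∧ ff (F2 r false) 1 v = 0 := by
  rw [ff2, ff2]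
  constructor
  · show v 0 * 0 + v 1 * 0 = 0
    ring
  · show v 0 * 0 + v 1 * 0 = 0
    ring

theorem md_l1' (hq : 2 ≤ q) : MdN q 2 (N2 (rr q) 1 true) 2 1 2 0 2 1 0 1 := by
  have key : ∀ (K : Set (Fin 4)) (K1 : Finset (Fin 4)), (∀ i ∈ K1, i ∈ K ∧ (i = 0 ∨ i = 1)) →
      (∀ i ∈ K, i ∉ K1 → i = 2 ∨ i = 3) → kd (N2 (rr q) 1 true) K = 2 - K1.card := by
    intro K K1 h1 h2
    refine kd2_of hq K1 ?_ ?_
    · intro i hi
      refine ⟨(h1 i hi).1, ?_, ?_⟩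
      · rcases (h1 i hi).2 with rfl | rfl <;> rfl
      · rcases (h1 i hi).2 with rfl | rfl <;> simp
    · intro i hi hi'
      rcases h2 i hi hi' with rfl | rfl
      · exact ⟨rfl, fun v => (ff_t _ v).1⟩
      · exact ⟨rfl, fun v => (ff_t _ v).2⟩
  refine ⟨hm2 hq (Or.inl rfl) true, by norm_num, irr2 hq, rfl, ?_, ?_, ?_, ?_, ?_, ?_, ?_⟩
  · exact (key _ {0} (by simp) (by simp)).trans rfl
  · exact (key _ ∅ (by simp) (by simp)).trans rfl
  · exact (key _ {0, 1} (by simp) (by simp)).trans rfl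
  · exact (key _ ∅ (by simp) (by simp)).trans rfl
  · exact (key _ {0} (by simp) (by simp)).trans rfl
  · exact (key _ {0, 1} (by simp) (by simp)).trans rfl
  · exact (key _ {0} (by simp) (by simp)).trans rfl

theorem md_l1 (hq : 2 ≤ q) : Md q 2 1 2 0 2 1 0 1 := ⟨2, _, md_l1' hq⟩

theorem md_l2' (hq : 2 ≤ q) : MdN q 2 (N2 (rr q) (-rr q) true) 2 1 0 0 0 0 0 0 := by
  have key : ∀ (K : Set (Fin 4)) (K1 : Finset (Fin 4)), (∀ i ∈ K1, i ∈ K ∧ (i = 0 ∨ i = 1)) →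
      (∀ i ∈ K, i ∈ K1) → kd (N2 (rr q) (-rr q) true) K = 2 - K1.card := by
    intro K K1 h1 h2
    refine kd2_of hq K1 ?_ ?_
    · intro i hi
      refine ⟨(h1 i hi).1, ?_, ?_⟩
      · rcases (h1 i hi).2 with rfl | rfl <;> rfl
      · rcases (h1 i hi).2 with rfl | rfl <;> simp
    · intro i hi hi'
      exact absurd (h2 i hi) hi'
  have k0 : ∀ K : Set (Fin 4), 3 ∈ K → kd (N2 (rr q) (-rr q) true) K = 0 := fun K hK =>
    kd2_zero hq 3 hK rfl fun v => (ff_t _ v).2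
  refine ⟨hm2 hq (Or.inr rfl) true, by norm_num, irr2 hq, rfl, ?_, ?_, ?_, ?_, ?_, ?_, ?_⟩
  · exact (key _ {0} (by simp) (by simp)).trans rfl
  · exact k0 _ (by simp)
  · exact (key _ {0, 1} (by simp) (by simp)).trans rfl
  all_goals exact k0 _ (by simp)

theorem md_l2 (hq : 2 ≤ q) : Md q 2 1 0 0 0 0 0 0 := ⟨2, _, md_l2' hq⟩

theorem md_s1' (hq : 2 ≤ q) : MdN q 2 (N2 (rr q) 1 false) 2 2 1 2 0 1 1 0 := by
  have key : ∀ (K : Set (Fin 4)) (K1 : Finset (Fin 4)), (∀ i ∈ K1, i ∈ K ∧ (i = 2 ∨ i = 3)) →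
      (∀ i ∈ K, i ∉ K1 → i = 0 ∨ i = 1) → kd (N2 (rr q) 1 false) K = 2 - K1.card := by
    intro K K1 h1 h2
    refine kd2_of hq K1 ?_ ?_
    · intro i hi
      refine ⟨(h1 i hi).1, ?_, ?_⟩
      · rcases (h1 i hi).2 with rfl | rfl <;> rfl
      · rcases (h1 i hi).2 with rfl | rfl <;> simp
    · intro i hi hi'
      rcases h2 i hi hi' with rfl | rfl
      · exact ⟨rfl, fun v => (ff_f _ v).1⟩
      · exact ⟨rfl, fun v => (ff_f _ v).2⟩
  refine ⟨hm2 hq (Or.inl rfl) false, by norm_num, irr2 hq, rfl, ?_, ?_, ?_, ?_, ?_, ?_, ?_⟩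
  · exact (key _ ∅ (by simp) (by simp)).trans rfl
  · exact (key _ {3} (by simp) (by simp)).trans rfl
  · exact (key _ ∅ (by simp) (by simp)).trans rfl
  · exact (key _ {2, 3} (by simp) (by simp)).trans rfl
  · exact (key _ {3} (by simp) (by simp)).trans rfl
  · exact (key _ {3} (by simp) (by simp)).trans rfl
  · exact (key _ {2, 3} (by simp) (by simp)).trans rfl

theorem md_s1 (hq : 2 ≤ q) : Md q 2 2 1 2 0 1 1 0 := ⟨2, _, md_s1' hq⟩

theorem md_s2' (hq : 2 ≤ q) : MdN q 2 (N2 (rr q) (-rr q) false) 2 0 1 0 0 0 0 0 := by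
  have key : ∀ (K : Set (Fin 4)) (K1 : Finset (Fin 4)), (∀ i ∈ K1, i ∈ K ∧ (i = 2 ∨ i = 3)) →
      (∀ i ∈ K, i ∈ K1) → kd (N2 (rr q) (-rr q) false) K = 2 - K1.card := by
    intro K K1 h1 h2
    refine kd2_of hq K1 ?_ ?_
    · intro i hi
      refine ⟨(h1 i hi).1, ?_, ?_⟩
      · rcases (h1 i hi).2 with rfl | rfl <;> rfl
      · rcases (h1 i hi).2 with rfl | rfl <;> simp
    · intro i hi hi'
      exact absurd (h2 i hi) hi'
  have k0 : ∀ K : Set (Fin 4), 0 ∈ K → kd (N2 (rr q) (-rr q) false) K = 0 := fun K hK =>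
    kd2_zero hq 0 hK rfl fun v => (ff_f _ v).1
  refine ⟨hm2 hq (Or.inr rfl) false, by norm_num, irr2 hq, rfl,
    ?_, ?_, ?_, ?_, ?_, ?_, ?_⟩
  · exact k0 _ (by simp)
  · exact (key _ {3} (by simp) (by simp)).trans rfl
  · exact k0 _ (by simp)
  · exact (key _ {2, 3} (by simp) (by simp)).trans rfl
  all_goals exact k0 _ (by simp)

theorem md_s2 (hq : 2 ≤ q) : Md q 2 0 1 0 0 0 0 0 := ⟨2, _, md_s2' hq⟩

end Two

/-! ### the final theorem -/

/-- the degrees -/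
def dv : Fin 12 → ℤ := ![1, 1, 1, 1, 4, 4, 4, 4, 2, 2, 2, 2]

/-- `mm N 0 1 3` -/
def mv : Fin 12 → ℤ := ![1, -1, 1, -1, -1, 1, -1, 1, -1, 1, 0, 0]

/-- `mm N 3 2 0` -/
def mv' : Fin 12 → ℤ := ![1, 1, -1, -1, -1, -1, 1, 1, 0, 0, -1, 1]

/-- `kd N {0}` -/
def kl : Fin 12 → ℤ := ![1, 1, 0, 0, 3, 3, 1, 1, 1, 1, 2, 0]

/-- `kd N {3}` -/
def ks : Fin 12 → ℤ := ![1, 0, 1, 0, 3, 1, 3, 1, 2, 0, 1, 1]

/-- `kd N {0, 1, 3}` -/
def k013 : Fin 12 → ℤ := ![1, 0, 0, 0, 1, 1, 0, 0, 0, 0, 1, 0]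

/-- `kd N {0, 2, 3}` -/
def k023 : Fin 12 → ℤ := ![1, 0, 0, 0, 1, 0, 1, 0, 1, 0, 0, 0]

/-- **the twelve modules** -/
theorem exists_mod {q : ℕ} (hq : 2 ≤ q) (k : Fin 12) : ∃ (n : ℕ) (N : Fin 4 → Module.End ℂ (Fin n → ℂ)),
    HMod CoxeterMatrix.F₄ (fun _ => q) N ∧ 0 < n ∧
    (∀ S : Submodule ℂ (Fin n → ℂ), (∀ i, ∀ v ∈ S, N i v ∈ S) → S = ⊥ ∨ S = ⊤) ∧ (n : ℤ) = dv k ∧
    mm N 0 1 3 = mv k ∧ mm N 3 2 0 = mv' k ∧ kd N {0} = kl k ∧ kd N {3} = ks k ∧ kd N {0, 1, 3} = k013 k ∧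
    kd N {0, 2, 3} = k023 k := by
  have key : ∀ a0 a1 a2 a3 a4 a5 a6 a7 : ℤ, Md q a0 a1 a2 a3 a4 a5 a6 a7 → a0 = dv k →
      2 * (a2 - 3 * a5 + 3 * a6) - (a0 - 3 * a1 + 3 * a3) = mv k →
      2 * (a1 - 3 * a5 + 3 * a7) - (a0 - 3 * a2 + 3 * a4) = mv' k → a1 = kl k → a2 = ks k → a6 = k013 k →
      a7 = k023 k → ∃ (n : ℕ) (N : Fin 4 → Module.End ℂ (Fin n → ℂ)),
      HMod CoxeterMatrix.F₄ (fun _ => q) N ∧ 0 < n ∧
      (∀ S : Submodule ℂ (Fin n → ℂ), (∀ i, ∀ v ∈ S, N i v ∈ S) → S = ⊥ ∨ S = ⊤) ∧ (n : ℤ) = dv k ∧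
      mm N 0 1 3 = mv k ∧ mm N 3 2 0 = mv' k ∧ kd N {0} = kl k ∧ kd N {3} = ks k ∧ kd N {0, 1, 3} = k013 k ∧
      kd N {0, 2, 3} = k023 k := by
    rintro a0 a1 a2 a3 a4 a5 a6 a7 ⟨n, N, h1, h2, h3, h4, h5, h6, h7, h8, h9, h10, h11⟩ g0 g1 g2 g3 g4 g5 g6
    have hn : kd N ∅ = n := kd_id fun v i hi => absurd hi (Set.notMem_empty i)
    have s1 : ({3, 0} : Set (Fin 4)) = {0, 3} := Set.pair_comm 3 0
    have s2 : ({3, 2} : Set (Fin 4)) = {2, 3} := Set.pair_comm 3 2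
    have s3 : ({3, 2, 0} : Set (Fin 4)) = {0, 2, 3} := by
      ext x
      simp only [Set.mem_insert_iff, Set.mem_singleton_iff]
      tauto
    refine ⟨n, N, h1, h2, h3, h4.trans g0, ?_, ?_, h5.trans g3, h6.trans g4, h10.trans g5, h11.trans g6⟩
    · unfold mm
      rw [hn, h4, h5, h6, h7, h9, h10]
      exact g1
    · unfold mm
      rw [s1, s2, s3, hn, h4, h5, h6, h8, h9, h11]
      exact g2
  fin_cases k
  · exact key _ _ _ _ _ _ _ _ (md1 hq) rfl rfl rfl rfl rfl rfl rfl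
  · exact key _ _ _ _ _ _ _ _ (md2 hq) rfl rfl rfl rfl rfl rfl rfl
  · exact key _ _ _ _ _ _ _ _ (md3 hq) rfl rfl rfl rfl rfl rfl rfl
  · exact key _ _ _ _ _ _ _ _ (md4 hq) rfl rfl rfl rfl rfl rfl rfl
  · exact key _ _ _ _ _ _ _ _ (md_pp hq) rfl rfl rfl rfl rfl rfl rfl
  · exact key _ _ _ _ _ _ _ _ (md_pm hq) rfl rfl rfl rfl rfl rfl rfl
  · exact key _ _ _ _ _ _ _ _ (md_mp hq) rfl rfl rfl rfl rfl rfl rfl
  · exact key _ _ _ _ _ _ _ _ (md_mm hq) rfl rfl rfl rfl rfl rfl rfl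
  · exact key _ _ _ _ _ _ _ _ (md_l1 hq) rfl rfl rfl rfl rfl rfl rfl
  · exact key _ _ _ _ _ _ _ _ (md_l2 hq) rfl rfl rfl rfl rfl rfl rfl
  · exact key _ _ _ _ _ _ _ _ (md_s1 hq) rfl rfl rfl rfl rfl rfl rfl
  · exact key _ _ _ _ _ _ _ _ (md_s2 hq) rfl rfl rfl rfl rfl rfl rfl

end Cfsg.Agent.H943.FF
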